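import Cfsg.Agent.Lib.RuSyl.Comm

/-!
# Abstract extraspecial-type data: elementary commutator calculus with a central involution
-/

set_option autoImplicit false

namespace Cfsg.Agent.Lib.InvES

variable {P : Type*} [Group P] {z : P}

/-- A group whose commutators and squares lie in `{1,z}`, with centre `{1,z}`. -/
structure ESData (z : P) : Prop where
  z_ne : z ≠ 1
  z_sq : z * z = 1
  z_comm : ∀ x, x * z = z * x
  comm : ∀ x y : P, x * y = y * x ∨ x * y = y * x * z
  sq : ∀ x : P, x * x = 1 ∨ x * x = z
  cen : ∀ x : P, (∀ y, x * y = y * x) → x = 1 ∨ x = z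

namespace ESData

variable (D : ESData z)
include D

theorem nc_eq {a x : P} (h : ¬ Commute a x) : a * x = x * a * z := by
  rcases D.comm a x with h1 | h1
  · exact absurd h1 h
  · exact h1

theorem z_commute (x : P) : Commute x z := D.z_comm x

/-- Two elements not commuting with `x`: the product commutes. -/
theorem mul_comm_of_nc {a b x : P} (ha : ¬ Commute a x) (hb : ¬ Commute b x) :
    Commute (a * b) x := by
  have h1 := D.nc_eq ha
  have h2 := D.nc_eq hb
  show a * b * x = x * (a * b)
  calc a * b * x = a * (b * x) := by group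
    _ = a * (x * b * z) := by rw [h2]
    _ = (a * x) * b * z := by group
    _ = x * a * z * b * z := by rw [h1]
    _ = x * a * (z * b) * z := by group
    _ = x * a * (b * z) * z := by rw [D.z_comm b]
    _ = x * (a * b) * (z * z) := by group
    _ = x * (a * b) := by rw [D.z_sq, mul_one]

theorem not_comm_of_nc_c {a b x : P} (ha : ¬ Commute a x) (hb : Commute b x) :
    ¬ Commute (a * b) x := by
  intro h
  apply ha
  have := h.mul_left hb.inv_left
  simpa [mul_assoc] using this

theorem not_comm_of_c_nc {a b x : P} (ha : Commute a x) (hb : ¬ Commute b x) :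
    ¬ Commute (a * b) x := by
  intro h
  apply hb
  have := ha.inv_left.mul_left h
  simpa [mul_assoc] using this

theorem inv_mul_comm_of_nc {a b x : P} (ha : ¬ Commute a x) (hb : ¬ Commute b x) :
    Commute (a⁻¹ * b) x :=
  D.mul_comm_of_nc (fun h => ha (by simpa using h.inv_left)) hb

theorem exists_nc {x : P} (h1 : x ≠ 1) (h2 : x ≠ z) : ∃ g, ¬ Commute g x := by
  by_contra hc
  push Not at hc
  rcases D.cen x (fun y => (hc y).symm.eq) with h | h
  · exact h1 h
  · exact h2 h

/-- The centralizer of an element in abstract form. -/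
theorem index_centralizer_le (e : P) : (Subgroup.centralizer ({e} : Set P)).index ≤ 2 := by
  apply Cfsg.Agent.Lib.RuSyl.index_le_two_of
  intro a b ha hb
  rw [Subgroup.mem_centralizer_singleton_iff] at ha hb ⊢
  have h := D.inv_mul_comm_of_nc (x := e) (a := a) (b := b) (fun h => ha h.eq) (fun h => hb h.eq)
  exact h.eq

/-- **Fact W.** -/
theorem exists_noncomm_in_centralizer (hcard : 32 ≤ Nat.card P) [Finite P] {e : P} (he1 : e ≠ 1)
    (he2 : e ≠ z) : ∃ a b, Commute a e ∧ Commute b e ∧ ¬ Commute a b := by
  classical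
  by_contra hc
  push Not at hc
  set S := Subgroup.centralizer ({e} : Set P) with hS
  have hmemS : ∀ g, g ∈ S ↔ Commute g e := fun g => by
    rw [hS, Subgroup.mem_centralizer_singleton_iff]; rfl
  have hidx := D.index_centralizer_le e
  have hcs : Nat.card S * S.index = Nat.card P := Subgroup.card_mul_index S
  have hS16 : 16 ≤ Nat.card S := by
    by_contra hlt
    push Not at hlt
    have : Nat.card S * S.index ≤ 15 * 2 := Nat.mul_le_mul (by omega) hidx
    omega
  -- an element outside `{1,z,e⁻¹,e⁻¹z}`
  have hex : ∃ f ∈ S, f ≠ 1 ∧ f ≠ z ∧ f ≠ e⁻¹ ∧ f ≠ e⁻¹ * z := by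
    by_contra hcon
    push Not at hcon
    have hsub : (S : Set P) ⊆ (({1, z, e⁻¹, e⁻¹ * z} : Finset P) : Set P) := by
      intro f hf
      have hf' : f ∈ S := hf
      simp only [Finset.coe_insert, Finset.coe_singleton, Set.mem_insert_iff, Set.mem_singleton_iff]
      by_cases h1 : f = 1
      · exact Or.inl h1
      by_cases h2 : f = z
      · exact Or.inr (Or.inl h2)
      by_cases h3 : f = e⁻¹
      · exact Or.inr (Or.inr (Or.inl h3))
      exact Or.inr (Or.inr (Or.inr (hcon f hf' h1 h2 h3)))
    have hle : Nat.card S ≤ ({1, z, e⁻¹, e⁻¹ * z} : Finset P).card := by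
      have h1 : Nat.card S = (S : Set P).ncard := by
        exact Nat.card_coe_set_eq (S : Set P)
      rw [h1, ← Set.ncard_coe_finset]
      exact Set.ncard_le_ncard hsub (Finset.finite_toSet _)
    have h4 : ({1, z, e⁻¹, e⁻¹ * z} : Finset P).card ≤ 4 := Finset.card_le_four
    omega
  obtain ⟨f, hfS, hf1, hf2, hf3, hf4⟩ := hex
  have hfe : Commute f e := (hmemS f).mp hfS
  -- `ef` is noncentral
  have hef1 : e * f ≠ 1 := fun h => hf3 (by rw [eq_comm, inv_eq_iff_mul_eq_one]; exact h)
  have hef2 : e * f ≠ z := fun h => hf4 (by rw [← h]; group)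
  -- for all g: g commutes with e iff with f
  have hiff : ∀ g, Commute g e ↔ Commute g f := by
    intro g
    constructor
    · intro hg
      exact hc g f hg hfe
    · intro hg
      by_contra hne
      obtain ⟨h, hh⟩ := D.exists_nc hf1 hf2
      have hhe : ¬ Commute h e := fun h' => hh (hc h f h' hfe)
      have h2 := D.inv_mul_comm_of_nc hne hhe
      have h3 := hc _ f h2 hfe
      have h4 : Commute (g * (g⁻¹ * h)) f := hg.mul_left h3
      apply hh
      simpa using h4
  obtain ⟨g, hg⟩ := D.exists_nc hef1 hef2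
  apply hg
  by_cases h1 : Commute g e
  · exact h1.mul_right ((hiff g).mp h1)
  · have h2 : ¬ Commute g f := fun h => h1 ((hiff g).mpr h)
    have h3 := D.mul_comm_of_nc (a := e) (b := f) (x := g) (fun h => h1 h.symm) (fun h => h2 h.symm)
    exact h3.symm

/-- **Involutions outside a maximal subgroup.** -/
theorem exists_involution_not_mem (hcard : 32 ≤ Nat.card P) [Finite P] (S : Subgroup P) (hz : z ∈ S)
    (hS : ∀ a b, a ∉ S → b ∉ S → a⁻¹ * b ∈ S) {e : P} (he : e ∉ S) : ∃ t, t ∉ S ∧ t * t = 1 := by
  classical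
  rcases D.sq e with h | h
  · exact ⟨e, he, h⟩
  have he1 : e ≠ 1 := fun h' => he (h' ▸ S.one_mem)
  have he2 : e ≠ z := fun h' => he (h' ▸ hz)
  obtain ⟨a, b, ha, hb, hab⟩ := D.exists_noncomm_in_centralizer hcard he1 he2
  -- replacing by elements of `S`
  have hrep : ∀ a, Commute a e → ∃ a', a' ∈ S ∧ Commute a' e ∧ ∃ k : P, Commute k e ∧ a = k * a' ∧ (k = 1 ∨ k = e) := by
    intro a ha
    by_cases h1 : a ∈ S
    · exact ⟨a, h1, ha, 1, Commute.one_left _, by simp, Or.inl rfl⟩
    · refine ⟨e⁻¹ * a, ?_, (Commute.refl e).inv_left.mul_left ha, e, Commute.refl e, by simp, Or.inr rfl⟩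
      have h2 := hS a e h1 he
      have h3 := S.inv_mem h2
      simpa using h3
  obtain ⟨a', ha'S, ha'e, k, hk, rfl, hk'⟩ := hrep a ha
  obtain ⟨b', hb'S, hb'e, l, hl, rfl, hl'⟩ := hrep b hb
  have hab' : ¬ Commute a' b' := by
    intro hc
    apply hab
    have hkl : Commute k l := by
      rcases hk' with rfl | rfl
      · exact Commute.one_left _
      · rcases hl' with rfl | rfl
        · exact Commute.one_right _
        · exact Commute.refl _
    have hka' : Commute k a' := by
      rcases hk' with rfl | rfl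
      · exact Commute.one_left _
      · exact ha'e.symm
    have hkb' : Commute k b' := by
      rcases hk' with rfl | rfl
      · exact Commute.one_left _
      · exact hb'e.symm
    have hla' : Commute l a' := by
      rcases hl' with rfl | rfl
      · exact Commute.one_left _
      · exact ha'e.symm
    have hlb' : Commute l b' := by
      rcases hl' with rfl | rfl
      · exact Commute.one_left _
      · exact hb'e.symm
    show k * a' * (l * b') = l * b' * (k * a')
    calc k * a' * (l * b') = k * (a' * l) * b' := by group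
      _ = k * (l * a') * b' := by rw [hla'.symm.eq]
      _ = (k * l) * (a' * b') := by group
      _ = (l * k) * (b' * a') := by rw [hkl.eq, hc.eq]
      _ = l * (k * b') * a' := by group
      _ = l * (b' * k) * a' := by rw [hkb'.eq]
      _ = l * b' * (k * a') := by group
  -- one of `a', b', a'b'` has square `z`
  have hex : ∃ f, f ∈ S ∧ Commute f e ∧ f * f = z := by
    rcases D.sq a' with h1 | h1
    · rcases D.sq b' with h2 | h2
      · rcases D.sq (a' * b') with h3 | h3
        · exfalso
          apply hab'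
          show a' * b' = b' * a'
          have e1 : a'⁻¹ = a' := by rw [inv_eq_iff_mul_eq_one]; exact h1
          have e2 : b'⁻¹ = b' := by rw [inv_eq_iff_mul_eq_one]; exact h2
          have e3 : (a' * b')⁻¹ = a' * b' := by rw [inv_eq_iff_mul_eq_one]; exact h3
          rw [mul_inv_rev, e1, e2] at e3
          exact e3.symm
        · exact ⟨a' * b', S.mul_mem ha'S hb'S, ha'e.mul_left hb'e, h3⟩
      · exact ⟨b', hb'S, hb'e, h2⟩
    · exact ⟨a', ha'S, ha'e, h1⟩
  obtain ⟨f, hfS, hfe, hff⟩ := hex
  refine ⟨e * f, ?_, ?_⟩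
  · intro h1
    apply he
    have := S.mul_mem h1 (S.inv_mem hfS)
    simpa using this
  · calc e * f * (e * f) = e * (f * e) * f := by group
      _ = e * (e * f) * f := by rw [hfe.eq]
      _ = (e * e) * (f * f) := by group
      _ = z * z := by rw [h, hff]
      _ = 1 := D.z_sq

/-- The double centralizer of an involution. -/
theorem mem_of_comm_centralizer {t c : P} (ht : t * t = 1)
    (hc : ∀ g, Commute g t → Commute c g) : c = 1 ∨ c = z ∨ c = t ∨ c = t * z := by
  classical
  by_cases h1 : c = 1
  · exact Or.inl h1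
  by_cases h2 : c = z
  · exact Or.inr (Or.inl h2)
  obtain ⟨g₀, hg₀⟩ := D.exists_nc h1 h2
  have hg₀t : ¬ Commute g₀ t := fun h => hg₀ (hc g₀ h).symm
  have hall : ∀ g, Commute g (c * t) := by
    intro g
    by_cases h : Commute g t
    · exact (hc g h).symm.mul_right h
    · have h3 := D.inv_mul_comm_of_nc h hg₀t
      have h4 := (hc _ h3).symm
      have h5 : ¬ Commute g c := by
        intro h6
        apply hg₀
        have := h6.mul_left h4
        simpa using this
      have h6 := D.mul_comm_of_nc (a := c) (b := t) (x := g) (fun h' => h5 h'.symm) (fun h' => h h'.symm)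
      exact h6.symm
  have htinv : t⁻¹ = t := by rw [inv_eq_iff_mul_eq_one]; exact ht
  rcases D.cen (c * t) (fun y => (hall y).symm.eq) with h | h
  · right; right; left
    rw [← htinv]
    exact eq_inv_of_mul_eq_one_left h
  · right; right; right
    have : c = z * t⁻¹ := eq_mul_inv_of_mul_eq h
    rw [this, htinv, D.z_comm t]

/-- The action of an automorphism-like map centralizing `C(t)`. -/
theorem map_eq_of_fix {t e₀ : P} (ht : t * t = 1) (he₀ : ¬ Commute e₀ t) (σ : P →* P)
    (hσ : ∀ c, Commute c t → σ c = c) : σ e₀ = e₀ ∨ σ e₀ = e₀ * z := by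
  have hzt : Commute z t := (D.z_commute t).symm
  have hσz : σ z = z := hσ z hzt
  -- `d` commutes with `C(t)`
  have hd : ∀ g, Commute g t → Commute (e₀⁻¹ * σ e₀) g := by
    intro c hc
    by_cases h : Commute e₀ c
    · have h1 : Commute (σ e₀) c := by
        have := h.map σ
        rwa [hσ c hc] at this
      exact h.inv_left.mul_left h1
    · have h1 : ¬ Commute (σ e₀) c := by
        intro h2
        have e1 := D.nc_eq h
        have e2 := congrArg σ e1
        rw [map_mul, map_mul, map_mul, hσ c hc, hσz, h2.eq] at e2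
        have e3 : c * σ e₀ = c * σ e₀ * z := e2
        exact D.z_ne (by simpa using e3.symm)
      exact D.inv_mul_comm_of_nc h h1
  have hee : σ (e₀ * e₀) = e₀ * e₀ := by
    rcases D.sq e₀ with h | h
    · rw [h, map_one]
    · rw [h, hσz]
  have hte : t * e₀ = e₀ * t * z := D.nc_eq (fun h => he₀ h.symm)
  have hkey : ∀ w, w = e₀ * t ∨ w = e₀ * t * z → σ e₀ = w → False := by
    intro w hw hs
    have h1 : σ e₀ * σ e₀ = e₀ * e₀ := by rw [← map_mul, hee]
    have h2 : (e₀ * t) * (e₀ * t) = e₀ * e₀ * z := by
      calc (e₀ * t) * (e₀ * t) = e₀ * (t * e₀) * t := by group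
        _ = e₀ * (e₀ * t * z) * t := by rw [hte]
        _ = e₀ * e₀ * t * (z * t) := by group
        _ = e₀ * e₀ * t * (t * z) := by rw [D.z_comm t]
        _ = e₀ * e₀ * (t * t) * z := by group
        _ = e₀ * e₀ * z := by rw [ht, mul_one]
    have h3 : w * w = e₀ * e₀ * z := by
      rcases hw with rfl | rfl
      · exact h2
      · calc e₀ * t * z * (e₀ * t * z) = e₀ * t * (z * (e₀ * t)) * z := by group
          _ = e₀ * t * ((e₀ * t) * z) * z := by rw [D.z_comm (e₀ * t)]
          _ = ((e₀ * t) * (e₀ * t)) * (z * z) := by group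
          _ = e₀ * e₀ * z := by rw [h2, D.z_sq, mul_one]
    rw [hs, h3] at h1
    exact D.z_ne (by simpa using h1)
  rcases D.mem_of_comm_centralizer ht hd with h | h | h | h
  · left
    have := inv_mul_eq_one.mp h
    exact this.symm
  · right
    exact (inv_mul_eq_iff_eq_mul.mp h)
  · exact (hkey _ (Or.inl rfl) (inv_mul_eq_iff_eq_mul.mp h)).elim
  · exfalso
    apply hkey (e₀ * t * z) (Or.inr rfl)
    rw [inv_mul_eq_iff_eq_mul.mp h]
    group

end ESData

end Cfsg.Agent.Lib.InvES
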