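import Cfsg.Agent.Lib.InvolChar.Transfer

/-!
# The transfer to `ℤ/2` evaluated at an involution
-/

set_option autoImplicit false

namespace Cfsg.Agent.Lib.InvES

open MulAction

variable {G : Type*} [Group G] [Finite G]

/-- A coset `xSt` fixed by `z` on which `x⁻¹zx` lies outside of `M`. -/
def ParGood (St : Subgroup G) (M : Subgroup St) (z : G) (c : G ⧸ St) : Prop :=
  ∃ h : (Quotient.out c)⁻¹ * z * Quotient.out c ∈ St, (⟨_, h⟩ : St) ∉ M

omit [Finite G] in
theorem parGood_mk (St : Subgroup G) (M : Subgroup St) (hMn : M.Normal) (z g : G) :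
    ParGood St M z (QuotientGroup.mk g) ↔ ∃ h : g⁻¹ * z * g ∈ St, (⟨_, h⟩ : St) ∉ M := by
  have h1 : (Quotient.out (QuotientGroup.mk g : G ⧸ St))⁻¹ * g ∈ St :=
    QuotientGroup.eq.mp (QuotientGroup.out_eq' _)
  unfold ParGood
  set g₀ := Quotient.out (QuotientGroup.mk g : G ⧸ St) with hg₀
  set s := g₀⁻¹ * g with hs
  have hg : g = g₀ * s := by rw [hs]; group
  have e : g⁻¹ * z * g = s⁻¹ * (g₀⁻¹ * z * g₀) * s := by rw [hg]; group
  have e' : g₀⁻¹ * z * g₀ = s * (g⁻¹ * z * g) * s⁻¹ := by rw [hg]; group
  constructor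
  · rintro ⟨h2, h3⟩
    have h4 : g⁻¹ * z * g ∈ St := by
      rw [e]
      exact St.mul_mem (St.mul_mem (St.inv_mem h1) h2) h1
    refine ⟨h4, fun h5 => h3 ?_⟩
    have := hMn.conj_mem _ h5 ⟨s, h1⟩
    convert this using 1
    exact Subtype.ext e'
  · rintro ⟨h2, h3⟩
    have h4 : g₀⁻¹ * z * g₀ ∈ St := by
      rw [e']
      exact St.mul_mem (St.mul_mem h1 h2) (St.inv_mem h1)
    refine ⟨h4, fun h5 => h3 ?_⟩
    have := hMn.conj_mem _ h5 (⟨s, h1⟩ : St)⁻¹
    convert this using 1
    apply Subtype.ext
    show g⁻¹ * z * g = s⁻¹ * (g₀⁻¹ * z * g₀) * s⁻¹⁻¹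
    rw [e]; simp

omit [Finite G] in
theorem parGood_fix (St : Subgroup G) (M : Subgroup St) (z : G) (c : G ⧸ St)
    (h : ParGood St M z c) : z • c = c := by
  obtain ⟨h, -⟩ := h
  conv_lhs => rw [← QuotientGroup.out_eq' c]
  conv_rhs => rw [← QuotientGroup.out_eq' c]
  show (QuotientGroup.mk (z * Quotient.out c) : G ⧸ St) = QuotientGroup.mk (Quotient.out c)
  rw [QuotientGroup.eq]
  have e : (z * Quotient.out c)⁻¹ * Quotient.out c = ((Quotient.out c)⁻¹ * z * Quotient.out c)⁻¹ := by group
  rw [e]
  exact St.inv_mem h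

/-- The transfer of an involution to `ℤ/2` is the parity of the number of good cosets. -/
theorem transfer_parity (St : Subgroup G) (M : Subgroup St) (hM : M.index = 2) (z : G) (hz2 : z ^ 2 = 1) :
    (Cfsg.Agent.Lib.InvolChar.parityHom M hM).transfer z =
      Multiplicative.ofAdd ((Nat.card {c // ParGood St M z c} : ℕ) : ZMod 2) := by
  classical
  set ϕ := Cfsg.Agent.Lib.InvolChar.parityHom M hM with hϕ
  letI : Fintype (G ⧸ St) := Fintype.ofFinite _
  letI : Fintype (Quotient (orbitRel (Subgroup.zpowers z) (G ⧸ St))) := Fintype.ofFinite _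
  let good : G ⧸ St → Prop := ParGood St M z
  have hgoodfix : ∀ c : G ⧸ St, good c → z • c = c := parGood_fix St M z
  rw [MonoidHom.transfer_eq_prod_quotient_orbitRel_zpowers_quot]
  have hterm : ∀ q : Quotient (orbitRel (Subgroup.zpowers z) (G ⧸ St)),
      ϕ ⟨(Quotient.out (q.out))⁻¹ * z ^ Function.minimalPeriod (z • ·) q.out * Quotient.out (q.out),
          QuotientGroup.out_conj_pow_minimalPeriod_mem St z q.out⟩ =
      Multiplicative.ofAdd (if good q.out then (1 : ZMod 2) else 0) := by
    intro q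
    set c := q.out with hc
    by_cases hzc' : z • c = c
    · have hl : Function.minimalPeriod (z • ·) c = 1 :=
        Function.minimalPeriod_eq_one_iff_isFixedPt.mpr hzc'
      have hmem : (Quotient.out c)⁻¹ * z * Quotient.out c ∈ St := by
        have := QuotientGroup.out_conj_pow_minimalPeriod_mem St z c
        rwa [hl, pow_one] at this
      have e : (⟨(Quotient.out c)⁻¹ * z ^ Function.minimalPeriod (z • ·) c * Quotient.out c,
          QuotientGroup.out_conj_pow_minimalPeriod_mem St z c⟩ : St) =
          ⟨(Quotient.out c)⁻¹ * z * Quotient.out c, hmem⟩ := Subtype.ext (by simp only [hl, pow_one])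
      rw [e]
      by_cases hM' : (⟨(Quotient.out c)⁻¹ * z * Quotient.out c, hmem⟩ : St) ∈ M
      · have hng : ¬ good c := by
          rintro ⟨_, h2⟩
          exact h2 hM'
        rw [if_neg hng, Cfsg.Agent.Lib.InvolChar.parityHom_of_mem M hM hM']
        rfl
      · have hg : good c := ⟨hmem, hM'⟩
        rw [if_pos hg, Cfsg.Agent.Lib.InvolChar.parityHom_of_not_mem M hM hM']
    · have hng : ¬ good c := fun h => hzc' (hgoodfix c h)
      rw [if_neg hng]
      have hl : Function.minimalPeriod (z • ·) c ∣ 2 := by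
        apply Function.IsPeriodicPt.minimalPeriod_dvd
        show (z • ·)^[2] c = c
        rw [smul_iterate, hz2]; simp
      have hl2 : Function.minimalPeriod (z • ·) c = 2 := by
        rcases (Nat.dvd_prime Nat.prime_two).mp hl with h | h
        · exact absurd (Function.minimalPeriod_eq_one_iff_isFixedPt.mp h) hzc'
        · exact h
      have e : (⟨(Quotient.out c)⁻¹ * z ^ Function.minimalPeriod (z • ·) c * Quotient.out c,
          QuotientGroup.out_conj_pow_minimalPeriod_mem St z c⟩ : St) = 1 :=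
        Subtype.ext (by simp [hl2, hz2])
      rw [e, map_one]
      rfl
  rw [Finset.prod_congr rfl (fun q _ => hterm q), ← ofAdd_sum, Finset.sum_boole]
  have hbij : (Finset.univ.filter (fun q : Quotient (orbitRel (Subgroup.zpowers z) (G ⧸ St)) => good q.out)).card =
      (Finset.univ.filter good).card := by
    apply Finset.card_bij (fun q _ => q.out)
    · intro q hq
      simpa using hq
    · intro q _ q' _ h
      exact Quotient.out_injective h
    · intro c hc
      have hc' : good c := by simpa using hc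
      have h1 : (Quotient.mk'' c : Quotient (orbitRel (Subgroup.zpowers z) (G ⧸ St))).out ∈
          orbit (Subgroup.zpowers z) c := by
        exact orbitRel_apply.mp (Quotient.mk_out (s := orbitRel (Subgroup.zpowers z) (G ⧸ St)) c)
      obtain ⟨⟨k, hk⟩, hk'⟩ := h1
      obtain ⟨n, rfl⟩ := Subgroup.mem_zpowers_iff.mp hk
      have h2 : z ^ n • c = c := by
        have hfixed : z ∈ stabilizer G c := hgoodfix c hc'
        exact Subgroup.zpow_mem _ hfixed n
      have h3 : (Quotient.mk'' c : Quotient (orbitRel (Subgroup.zpowers z) (G ⧸ St))).out = c := by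
        rw [← hk']
        exact h2
      refine ⟨Quotient.mk'' c, ?_, h3⟩
      simp only [Finset.mem_filter, Finset.mem_univ, true_and]
      rw [h3]; exact hc'
  rw [hbij]
  congr 2
  rw [Nat.card_eq_fintype_card, Fintype.card_subtype]

end Cfsg.Agent.Lib.InvES
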