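import Cfsg.Agent.Lib.InvES.Abs
import Cfsg.Agent.Lib.InvES.Parity

/-!
# Large extraspecial centralizers and subgroups of index two
-/

set_option autoImplicit false

namespace Cfsg.Agent.Lib.InvES

open MulAction

variable {G : Type*} [Group G] [Finite G]

/-- Conjugation by `y` on a subgroup normalized by `y`. -/
def conjOn (E : Subgroup G) (y : G) (hy : ∀ e ∈ E, y * e * y⁻¹ ∈ E) : E →* E where
  toFun e := ⟨y * e * y⁻¹, hy e e.2⟩
  map_one' := by ext; simp
  map_mul' a b := by ext; simp only [Subgroup.coe_mul]; group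

/-- Elements normalizing `E` and centralizing `C_E(t)`. -/
theorem y_cases {E : Subgroup G} {z : G} (hzE : z ∈ E) (D : ESData (⟨z, hzE⟩ : E))
    (hcent : Subgroup.centralizer (E : Set G) ≤ E) {t y : G} (htE : t ∈ E) (ht : t * t = 1)
    (ht1 : t ≠ 1) (htz : t ≠ z)
    (hyE : ∀ e ∈ E, y * e * y⁻¹ ∈ E) (hyC : ∀ c ∈ E, Commute c t → Commute y c) (hy1 : y ≠ 1) :
    y = z ∨ y = t ∨ y = t * z := by
  set t' : E := ⟨t, htE⟩ with ht'
  have ht'1 : t' ≠ 1 := fun h => ht1 (congrArg Subtype.val h)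
  have ht'z : t' ≠ ⟨z, hzE⟩ := fun h => htz (congrArg Subtype.val h)
  have ht'2 : t' * t' = 1 := Subtype.ext ht
  obtain ⟨e₀, he₀⟩ := D.exists_nc ht'1 ht'z
  set σ := conjOn E y hyE with hσ
  have hσfix : ∀ c : E, Commute c t' → σ c = c := by
    intro c hc
    have h1 : Commute (c : G) t := congrArg Subtype.val hc
    have h2 := hyC c c.2 h1
    apply Subtype.ext
    show y * (c : G) * y⁻¹ = c
    rw [h2.eq]; group
  have hcases := D.map_eq_of_fix ht'2 he₀ σ hσfix
  -- the element centralizing `E`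
  have hcomm : ∀ y' : G, y' * (e₀ : G) = e₀ * y' → (∀ c ∈ E, Commute c t → Commute y' c) →
      y' ∈ E := by
    intro y' h1 h2
    apply hcent
    rw [Subgroup.mem_centralizer_iff]
    intro e he
    by_cases h3 : Commute (⟨e, he⟩ : E) t'
    · exact (h2 e he (congrArg Subtype.val h3)).eq.symm
    · have h4 := D.inv_mul_comm_of_nc he₀ h3
      have h5 : Commute ((e₀⁻¹ * ⟨e, he⟩ : E) : G) t := congrArg Subtype.val h4
      have h6 := h2 _ (e₀⁻¹ * ⟨e, he⟩ : E).2 h5
      have h7 : ((e₀⁻¹ * ⟨e, he⟩ : E) : G) = (e₀ : G)⁻¹ * e := rfl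
      rw [h7] at h6
      have h8 : e = e₀ * ((e₀ : G)⁻¹ * e) := by group
      show e * y' = y' * e
      rw [h8]
      calc (e₀ : G) * ((e₀ : G)⁻¹ * e) * y' = e₀ * (((e₀ : G)⁻¹ * e) * y') := by group
        _ = e₀ * (y' * ((e₀ : G)⁻¹ * e)) := by rw [h6.eq]
        _ = (e₀ * y') * ((e₀ : G)⁻¹ * e) := by group
        _ = (y' * e₀) * ((e₀ : G)⁻¹ * e) := by rw [h1]
        _ = _ := by group
  have hyEmem : y ∈ E := by
    rcases hcases with h | h
    · apply hcomm y
      · have h1 : y * (e₀ : G) * y⁻¹ = e₀ := congrArg Subtype.val h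
        calc y * (e₀ : G) = (y * e₀ * y⁻¹) * y := by group
          _ = e₀ * y := by rw [h1]
      · exact hyC
    · have h1 : y * (e₀ : G) * y⁻¹ = e₀ * z := congrArg Subtype.val h
      have h2 := hcomm (t * y) ?_ ?_
      · have := E.mul_mem (E.inv_mem htE) h2
        simpa using this
      · have h3 : t * (e₀ : G) = e₀ * t * z := congrArg Subtype.val (D.nc_eq (fun h => he₀ h.symm))
        have h4 : z * t = t * z := (congrArg Subtype.val (D.z_comm t')).symm
        have h5 : y * (e₀ : G) = e₀ * z * y := by rw [← h1]; group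
        have h6 : z * z = 1 := congrArg Subtype.val D.z_sq
        calc t * y * (e₀ : G) = t * (y * e₀) := by group
          _ = t * (e₀ * z * y) := by rw [h5]
          _ = (t * e₀) * z * y := by group
          _ = e₀ * t * z * z * y := by rw [h3]
          _ = e₀ * t * (z * z) * y := by group
          _ = e₀ * (t * y) := by rw [h6]; group
      · intro c hc hct
        exact (hct.symm).mul_left (hyC c hc hct)
  set y' : E := ⟨y, hyEmem⟩ with hy'
  have hdc := D.mem_of_comm_centralizer ht'2 (c := y') (fun g hg => by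
    have h1 : Commute (g : G) t := congrArg Subtype.val hg
    exact Subtype.ext (hyC g g.2 h1).eq)
  rcases hdc with h | h | h | h
  · exact absurd (congrArg Subtype.val h) hy1
  · exact Or.inl (congrArg Subtype.val h)
  · exact Or.inr (Or.inl (congrArg Subtype.val h))
  · exact Or.inr (Or.inr (congrArg Subtype.val h))

/-- A homomorphism to `ℤ/2` vanishes when `O^2(G) = G`. -/
theorem hom_trivial (hres : Cfsg.pResidual 2 G = ⊤) (τ : G →* Multiplicative (ZMod 2)) (g : G) :
    τ g = 1 := by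
  have hle : Cfsg.pResidual 2 G ≤ τ.ker := by
    unfold Cfsg.pResidual
    rw [Subgroup.closure_le]
    intro x hx
    have hx' : (orderOf x).Coprime 2 := hx
    show τ x = 1
    have h1 : (τ x) ^ orderOf x = 1 := by rw [← map_pow, pow_orderOf_eq_one, map_one]
    have h2 : (τ x) ^ 2 = 1 := by
      generalize τ x = w
      revert w
      decide
    have h3 := Nat.dvd_gcd (orderOf_dvd_of_pow_eq_one h1) (orderOf_dvd_of_pow_eq_one h2)
    rw [Nat.Coprime.gcd_eq_one hx'] at h3
    exact orderOf_eq_one_iff.mp (Nat.dvd_one.mp h3)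
  have : g ∈ Cfsg.pResidual 2 G := by rw [hres]; trivial
  exact hle this

section Main

variable {z : G} {E K : Subgroup G}

/-- Commutators of elements of `C(z)` lie in a subgroup of index two. -/
theorem comm_mem_of_index_two {H K : Subgroup G} (hKi : K.relIndex H = 2)
    {a b w : G} (ha : a ∈ H) (hb : b ∈ H) (h : a * b = b * a * w) : w ∈ K := by
  have hM : (K.subgroupOf H).index = 2 := hKi
  have hw : w = (b * a)⁻¹ * (a * b) := by rw [h]; group
  have hwH : w ∈ H := by
    rw [hw]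
    exact H.mul_mem (H.inv_mem (H.mul_mem hb ha)) (H.mul_mem ha hb)
  by_contra hwK
  set φ := Cfsg.Agent.Lib.InvolChar.parityHom (K.subgroupOf H) hM with hφ
  have h1 : φ ⟨w, hwH⟩ = Multiplicative.ofAdd 1 :=
    Cfsg.Agent.Lib.InvolChar.parityHom_of_not_mem _ hM (by
      rw [Subgroup.mem_subgroupOf]; exact hwK)
  have h2 : (⟨w, hwH⟩ : H) = (⟨b, hb⟩ * ⟨a, ha⟩)⁻¹ * (⟨a, ha⟩ * ⟨b, hb⟩) := Subtype.ext hw
  rw [h2, map_mul, map_inv, map_mul, map_mul, mul_comm (φ ⟨b, hb⟩), inv_mul_cancel] at h1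
  exact absurd h1 (by decide)

theorem inv_mul_mem_of_index_two {H K : Subgroup G} (hKi : K.relIndex H = 2)
    {a b : G} (ha : a ∈ H) (hb : b ∈ H) (haK : a ∉ K) (hbK : b ∉ K) : a⁻¹ * b ∈ K := by
  have hM : (K.subgroupOf H).index = 2 := hKi
  have h := Subgroup.mul_mem_iff_of_index_two hM (a := (⟨a, ha⟩ : H)⁻¹) (b := ⟨b, hb⟩)
  simp only [Subgroup.mem_subgroupOf, Subgroup.coe_inv, Subgroup.coe_mul] at h
  have h1 : a⁻¹ ∉ K := fun h' => haK (by simpa using K.inv_mem h')
  rw [h]
  simp [haK, hbK]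

/-- **Main theorem.** -/
theorem le_of_index_two (hres : Cfsg.pResidual 2 G = ⊤) (hzE : z ∈ E) (D : ESData (⟨z, hzE⟩ : E))
    (hEp : IsPGroup 2 E) (hEH : E ≤ Subgroup.centralizer ({z} : Set G))
    (hEn : ∀ y ∈ Subgroup.centralizer ({z} : Set G), ∀ e ∈ E, y * e * y⁻¹ ∈ E)
    (hcent : Subgroup.centralizer (E : Set G) ≤ E) (hcard : 32 ≤ Nat.card E)
    (hKi : K.relIndex (Subgroup.centralizer ({z} : Set G)) = 2) : E ≤ K := by
  classical
  set H := Subgroup.centralizer ({z} : Set G) with hH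
  by_contra hcon
  obtain ⟨e, heE, heK⟩ := SetLike.not_le_iff_exists.mp hcon
  have hM : (K.subgroupOf H).index = 2 := hKi
  have hMn := Subgroup.normal_of_index_eq_two hM
  have hmemH : ∀ x, x ∈ H ↔ x * z = z * x := fun x => by
    rw [hH, Subgroup.mem_centralizer_singleton_iff]
  have hmemM : ∀ (x : G) (h : x ∈ H), (⟨x, h⟩ : H) ∈ K.subgroupOf H ↔ x ∈ K := fun x h => by
    rw [Subgroup.mem_subgroupOf]
  haveI : Finite E := inferInstance
  -- a noncommuting pair
  have hnc : ∃ a b : E, ¬ Commute a b := by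
    by_contra hc
    push Not at hc
    have hall : ∀ x : E, x = 1 ∨ x = ⟨z, hzE⟩ := fun x => D.cen x (fun y => (hc x y).eq)
    letI : Fintype E := Fintype.ofFinite _
    have hsub : (Finset.univ : Finset E) ⊆ {1, ⟨z, hzE⟩} := by
      intro x _
      simpa using hall x
    have h1 := Finset.card_le_card hsub
    have h2 : ({1, ⟨z, hzE⟩} : Finset E).card ≤ 2 := Finset.card_le_two
    rw [Finset.card_univ, ← Nat.card_eq_fintype_card] at h1
    omega
  have hzK : z ∈ K := by
    obtain ⟨a, b, hab⟩ := hnc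
    have h1 : (a : G) * b = b * a * z := congrArg Subtype.val (D.nc_eq hab)
    exact comm_mem_of_index_two hKi (hEH a.2) (hEH b.2) h1
  -- the involution
  obtain ⟨t', ht'S, ht'2⟩ := D.exists_involution_not_mem hcard (K.subgroupOf E)
    (by rw [Subgroup.mem_subgroupOf]; exact hzK)
    (by
      intro a b ha hb
      rw [Subgroup.mem_subgroupOf] at ha hb ⊢
      exact inv_mul_mem_of_index_two hKi (hEH a.2) (hEH b.2) ha hb)
    (e := ⟨e, heE⟩) (by rw [Subgroup.mem_subgroupOf]; exact heK)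
  set t : G := t'.1 with ht
  have htE : t ∈ E := t'.2
  have htK : t ∉ K := by
    rw [Subgroup.mem_subgroupOf] at ht'S
    exact ht'S
  have ht2 : t * t = 1 := congrArg Subtype.val ht'2
  have ht1 : t ≠ 1 := fun h => htK (h ▸ K.one_mem)
  have htz : t ≠ z := fun h => htK (h ▸ hzK)
  have ht'1 : t' ≠ 1 := fun h => ht1 (congrArg Subtype.val h)
  have ht'z : t' ≠ ⟨z, hzE⟩ := fun h => htz (congrArg Subtype.val h)
  have hzz : z * z = 1 := congrArg Subtype.val D.z_sq
  have hz1 : z ≠ 1 := fun h => D.z_ne (Subtype.ext h)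
  have hzinv : z⁻¹ = z := by rw [inv_eq_iff_mul_eq_one]; exact hzz
  -- the centralizer
  set C : Subgroup G := E ⊓ Subgroup.centralizer ({t} : Set G) with hC
  have hC2 : IsPGroup 2 C := hEp.to_le inf_le_left
  have hmemC : ∀ x, x ∈ C ↔ x ∈ E ∧ x * t = t * x := fun x => by
    rw [hC, Subgroup.mem_inf, Subgroup.mem_centralizer_singleton_iff]
  have hzC : z ∈ C := by
    rw [hmemC]
    refine ⟨hzE, ?_⟩
    exact ((hmemH t).mp (hEH htE)).symm
  obtain ⟨a, b, hat, hbt, hab⟩ := D.exists_noncomm_in_centralizer hcard ht'1 ht'z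
  have haC : (a : G) ∈ C := by
    rw [hmemC]
    exact ⟨a.2, congrArg Subtype.val hat⟩
  have hbC : (b : G) ∈ C := by
    rw [hmemC]
    exact ⟨b.2, congrArg Subtype.val hbt⟩
  have habz : (a : G) * b = b * a * z := congrArg Subtype.val (D.nc_eq hab)
  -- the good cosets
  have hinv : ∀ (s : C) (c : G ⧸ H), ParGood H (K.subgroupOf H) t (s • c) ↔ ParGood H (K.subgroupOf H) t c := by
    rintro ⟨s, hs⟩ c
    obtain ⟨g, rfl⟩ := QuotientGroup.mk_surjective c
    have e1 : (⟨s, hs⟩ : C) • (QuotientGroup.mk g : G ⧸ H) = QuotientGroup.mk (s * g) := rfl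
    rw [e1, parGood_mk _ _ hMn, parGood_mk _ _ hMn]
    have e2 : (s * g)⁻¹ * t * (s * g) = g⁻¹ * t * g := by
      have h1 := ((hmemC s).mp hs).2
      calc (s * g)⁻¹ * t * (s * g) = g⁻¹ * s⁻¹ * (t * s) * g := by group
        _ = g⁻¹ * s⁻¹ * (s * t) * g := by rw [h1]
        _ = _ := by group
    simp only [e2]
  let W' : SubMulAction C (G ⧸ H) :=
    { carrier := {c | ParGood H (K.subgroupOf H) t c}
      smul_mem' := fun s c hc => (hinv s c).mpr hc }
  have hW' : Nat.card W' ≡ Nat.card (fixedPoints C W') [MOD 2] :=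
    hC2.card_modEq_card_fixedPoints W'
  have htH : t ∈ H := hEH htE
  have hgood0 : ParGood H (K.subgroupOf H) t (QuotientGroup.mk 1) := by
    rw [parGood_mk _ _ hMn]
    have e1 : (1 : G)⁻¹ * t * 1 = t := by group
    have h1 : (1 : G)⁻¹ * t * 1 ∈ H := by rw [e1]; exact htH
    refine ⟨h1, ?_⟩
    rw [hmemM]
    rw [e1]
    exact htK
  let p0 : W' := ⟨QuotientGroup.mk 1, hgood0⟩
  have hp0 : p0 ∈ fixedPoints C W' := by
    rintro ⟨s, hs⟩
    apply Subtype.ext
    show (QuotientGroup.mk (s * 1) : G ⧸ H) = QuotientGroup.mk 1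
    rw [QuotientGroup.eq]
    have : (s * 1)⁻¹ * 1 = s⁻¹ := by group
    rw [this]
    exact H.inv_mem (hEH ((hmemC s).mp hs).1)
  have huniq : ∀ x : W', x ∈ fixedPoints C W' → x = p0 := by
    rintro ⟨c, hc⟩ hfix
    apply Subtype.ext
    show c = QuotientGroup.mk 1
    obtain ⟨g, rfl⟩ := QuotientGroup.mk_surjective c
    have hc' : ParGood H (K.subgroupOf H) t (QuotientGroup.mk g) := hc
    rw [parGood_mk _ _ hMn] at hc'
    obtain ⟨hgH, hgM⟩ := hc'
    rw [hmemM] at hgM
    have hconj : ∀ s ∈ C, g⁻¹ * s * g ∈ H := by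
      intro s hs
      have h0 := hfix ⟨s, hs⟩
      have h1 : (QuotientGroup.mk (s * g) : G ⧸ H) = QuotientGroup.mk g := congrArg Subtype.val h0
      have h2 : (s * g)⁻¹ * g ∈ H := QuotientGroup.eq.mp h1
      have h3 : g⁻¹ * s * g = ((s * g)⁻¹ * g)⁻¹ := by group
      rw [h3]
      exact H.inv_mem h2
    set y := g * z * g⁻¹ with hy
    have hycomm : ∀ s ∈ C, Commute y s := by
      intro s hs
      have h1 := (hmemH _).mp (hconj s hs)
      show y * s = s * y
      calc y * s = g * (z * (g⁻¹ * s * g)) * g⁻¹ := by rw [hy]; group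
        _ = g * ((g⁻¹ * s * g) * z) * g⁻¹ := by rw [h1]
        _ = s * y := by rw [hy]; group
    have hyH : y ∈ H := by
      rw [hmemH]
      exact hycomm z hzC
    have hy1 : y ≠ 1 := by
      intro h
      apply hz1
      have : z = g⁻¹ * y * g := by rw [hy]; group
      rw [this, h]; group
    have hcases := y_cases hzE D hcent htE ht2 ht1 htz (hEn y hyH)
      (fun c hc hct => hycomm c ((hmemC c).mpr ⟨hc, hct.eq⟩)) hy1
    rcases hcases with h | h | h
    · rw [QuotientGroup.eq]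
      have h1 : g⁻¹ * z * g = z := by
        have : g * z = z * g := by
          calc g * z = (g * z * g⁻¹) * g := by group
            _ = z * g := by rw [← hy, h]
        calc g⁻¹ * z * g = g⁻¹ * (z * g) := by group
          _ = g⁻¹ * (g * z) := by rw [this]
          _ = z := by group
      rw [hmemH]
      have e1 : g⁻¹ * 1 = g⁻¹ := by group
      rw [e1]
      calc g⁻¹ * z = (g⁻¹ * z * g) * g⁻¹ := by group
        _ = z * g⁻¹ := by rw [h1]
    · exfalso
      apply hgM
      have : g⁻¹ * t * g = z := by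
        rw [← h, hy]; group
      rw [this]
      exact hzK
    · exfalso
      apply hgM
      -- `x⁻¹ z x ∈ K`
      have h1 : g⁻¹ * z * g ∈ K := by
        refine comm_mem_of_index_two hKi (a := g⁻¹ * a * g) (b := g⁻¹ * b * g) (hconj _ haC) (hconj _ hbC) ?_
        calc g⁻¹ * a * g * (g⁻¹ * b * g) = g⁻¹ * ((a : G) * b) * g := by group
          _ = g⁻¹ * (b * a * z) * g := by rw [habz]
          _ = _ := by group
      have h2 : t = y * z := by
        rw [h, mul_assoc, hzz, mul_one]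
      have h3 : g⁻¹ * t * g = z * (g⁻¹ * z * g) := by
        rw [h2, hy]; group
      rw [h3]
      exact K.mul_mem hzK h1
  have hone : Nat.card (fixedPoints C W') = 1 := by
    rw [Nat.card_eq_one_iff_unique]
    refine ⟨⟨?_⟩, ⟨⟨p0, hp0⟩⟩⟩
    rintro ⟨x, hx⟩ ⟨x', hx'⟩
    apply Subtype.ext
    show x = x'
    rw [huniq x hx, huniq x' hx']
  rw [hone] at hW'
  have htrans := transfer_parity H (K.subgroupOf H) hM t (by rw [pow_two]; exact ht2)
  have htriv := hom_trivial hres (Cfsg.Agent.Lib.InvolChar.parityHom (K.subgroupOf H) hM).transfer t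
  rw [htriv] at htrans
  have h0 : ((Nat.card {c // ParGood H (K.subgroupOf H) t c} : ℕ) : ZMod 2) = 0 :=
    (Multiplicative.ofAdd.injective htrans).symm
  rw [ZMod.natCast_eq_zero_iff] at h0
  have h1 : Nat.card W' = Nat.card {c // ParGood H (K.subgroupOf H) t c} := rfl
  rw [h1] at hW'
  have h2 := (Nat.modEq_zero_iff_dvd.mpr h0).symm.trans hW'
  exact absurd h2 (by decide)

end Main

end Cfsg.Agent.Lib.InvES
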